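import Cfsg.Agent.S0215
import Cfsg.Agent.Lib.Cores

/-!
# The Z*-theorem for 2-elements of arbitrary order

`t` a 2-element of the finite group `G` commuting with no other conjugate of itself: then `[t, g] ∈ O(G)` for all `g`.
-/

set_option autoImplicit false

open Cfsg Subgroup
open scoped Pointwise

namespace Cfsg.Agent.H254.ZStarElt

universe u

/-- An element of a finite `p`-group commuting with no other conjugate is central. -/
theorem central_of_isolated {S : Type*} [Group S] [Finite S] {p : ℕ} [Fact p.Prime] (hS : IsPGroup p S)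
    {t : S} (h : ∀ g : S, Commute (g * t * g⁻¹) t → g * t * g⁻¹ = t) (g : S) : g * t * g⁻¹ = t := by
  have hn : Group.IsNilpotent S := hS.isNilpotent
  have hnc : NormalizerCondition S := Group.normalizerCondition_of_isNilpotent
  set H : Subgroup S := centralizer ({t} : Set S) with hH
  have htop : H = ⊤ := by
    by_contra hne
    have hlt := hnc H (lt_top_iff_ne_top.2 hne)
    obtain ⟨x, hxN, hxH⟩ := SetLike.exists_of_lt hlt
    apply hxH
    have ht : t ∈ H := by
      rw [hH, mem_centralizer_singleton_iff]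
    have h1 : x * t * x⁻¹ ∈ H := (mem_normalizer_iff.1 hxN t).1 ht
    rw [hH, mem_centralizer_singleton_iff] at h1
    have h2 := h x h1
    rw [hH, mem_centralizer_singleton_iff]
    exact mul_inv_eq_iff_eq_mul.1 h2
  have h3 : g ∈ H := htop ▸ mem_top g
  rw [hH, mem_centralizer_singleton_iff] at h3
  rw [h3]; group

theorem comm_of_iso {G : Type*} [Group G] {P : Subgroup G} {t : G} (ht : t ∈ P)
    (h : ∀ g : G, g * t * g⁻¹ ∈ P → g * t * g⁻¹ = t) {s : G} (hs : s ∈ P) : s * t = t * s :=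
  mul_inv_eq_iff_eq_mul.1 (h s (P.mul_mem (P.mul_mem hs ht) (P.inv_mem hs)))

/-- In a finite group a `p`-element of a subgroup `C` containing the Sylow subgroup `P` is `C`-conjugate into `P`. -/
theorem exists_conj_mem {G : Type*} [Group G] [Finite G] {p : ℕ} [Fact p.Prime] (P : Sylow p G) (C : Subgroup G)
    (hPC : (P : Subgroup G) ≤ C) {t : G} (ht : t ∈ C) (htp : IsPGroup p (zpowers t)) :
    ∃ c ∈ C, c * t * c⁻¹ ∈ P := by
  let Q : Sylow p C := P.subtype hPC
  have h1 : IsPGroup p (zpowers (⟨t, ht⟩ : C)) := by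
    have h2 : (zpowers (⟨t, ht⟩ : C)).map C.subtype = zpowers t := by
      rw [MonoidHom.map_zpowers]; rfl
    have h3 : IsPGroup p ((zpowers (⟨t, ht⟩ : C)).map C.subtype) := by rw [h2]; exact htp
    exact h3.of_equiv ((zpowers (⟨t, ht⟩ : C)).equivMapOfInjective C.subtype C.subtype_injective).symm
  obtain ⟨R, hR⟩ := h1.exists_le_sylow
  obtain ⟨c, hc⟩ := MulAction.exists_smul_eq C R Q
  refine ⟨c, c.2, ?_⟩
  have h4 : c * (⟨t, ht⟩ : C) * c⁻¹ ∈ Q := by
    rw [← hc]
    exact (Subgroup.mem_smul_pointwise_iff_exists _ _ _).2 ⟨⟨t, ht⟩, hR (mem_zpowers _), rfl⟩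
  exact h4

/-- Powers of weakly closed elements are weakly closed. -/
theorem pow_iso {G : Type*} [Group G] [Finite G] {p : ℕ} [Fact p.Prime] (P : Sylow p G) {t : G} (ht : t ∈ P)
    (h : ∀ g : G, g * t * g⁻¹ ∈ P → g * t * g⁻¹ = t) (m : ℕ) (g : G)
    (hg : g * t ^ m * g⁻¹ ∈ P) : g * t ^ m * g⁻¹ = t ^ m := by
  have hcomm : ∀ s ∈ P, s * t = t * s := fun s hs => comm_of_iso (P := (P : Subgroup G)) ht h hs
  set y := g * t ^ m * g⁻¹ with hy
  have hyt : t ∈ centralizer ({y} : Set G) := by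
    rw [mem_centralizer_singleton_iff]
    exact (hcomm y hg).symm
  have hP' : ((g • P : Sylow p G) : Subgroup G) ≤ centralizer ({y} : Set G) := by
    intro s hs
    obtain ⟨s', hs', rfl⟩ := (Subgroup.mem_smul_pointwise_iff_exists _ _ _).1 hs
    rw [mem_centralizer_singleton_iff]
    have h1 : Commute s' (t ^ m) := (Commute.pow_right (hcomm s' hs') m)
    have h2 : MulAut.conj g • s' = g * s' * g⁻¹ := rfl
    rw [h2, hy]
    calc g * s' * g⁻¹ * (g * t ^ m * g⁻¹) = g * (s' * t ^ m) * g⁻¹ := by group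
      _ = g * (t ^ m * s') * g⁻¹ := by rw [h1.eq]
      _ = _ := by group
  have htp : IsPGroup p (zpowers t) := P.isPGroup'.to_le (zpowers_le.2 ht)
  obtain ⟨c, hc, hct⟩ := exists_conj_mem (g • P) _ hP' hyt htp
  obtain ⟨s', hs', hs2⟩ := (Subgroup.mem_smul_pointwise_iff_exists _ _ _).1 hct
  have h2 : MulAut.conj g • s' = g * s' * g⁻¹ := rfl
  rw [h2] at hs2
  have h3 : s' = (g⁻¹ * c) * t * (g⁻¹ * c)⁻¹ := by
    calc s' = g⁻¹ * (g * s' * g⁻¹) * g := by group
      _ = g⁻¹ * (c * t * c⁻¹) * g := by rw [hs2]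
      _ = _ := by group
  have h4 : s' = t := by rw [h3]; exact h _ (h3 ▸ hs')
  have h5 : c * t ^ m * c⁻¹ = y := by
    rw [hy, ← conj_pow, ← hs2, h4, conj_pow]
  have h6 : c * y = y * c := mem_centralizer_singleton_iff.1 hc
  calc y = c⁻¹ * (c * y) := by group
    _ = c⁻¹ * (y * c) := by rw [h6]
    _ = c⁻¹ * (c * t ^ m * c⁻¹ * c) := by rw [h5]
    _ = t ^ m := by group

/-- A normal subgroup `N` with an involution `u`, central in `G`, of index odd in `N`: the elements of odd order of `N` form a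
normal subgroup; so `N = ⟨u⟩` if `G` has no nontrivial normal subgroup of odd order. -/
theorem le_of_central {G : Type*} [Group G] [Finite G] (hO : ∀ N : Subgroup G, N.Normal → Odd (Nat.card N) → N = ⊥)
    (U : Subgroup G) (hU : ∀ u ∈ U, ∀ g : G, u * g = g * u) (hU2 : IsPGroup 2 U) (N : Subgroup G) (hN : N.Normal) (hUN : U ≤ N)
    (hodd : Odd (U.relIndex N)) : N ≤ U := by
  have h2 : Fact (Nat.Prime 2) := ⟨Nat.prime_two⟩
  have hUn : (U.subgroupOf N).Normal := by
    constructor
    intro z hz g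
    have h1 : g * z * g⁻¹ = z := by
      apply Subtype.ext
      have h3 := hU z hz g
      calc (g : G) * z * (g : G)⁻¹ = z * g * (g : G)⁻¹ := by rw [h3]
        _ = z := by group
    rw [h1]; exact hz
  have hUp : IsPGroup 2 (U.subgroupOf N) := hU2.of_equiv (Subgroup.subgroupOfEquivOfLe hUN).symm
  have hcop : (Nat.card (U.subgroupOf N)).Coprime (U.subgroupOf N).index := by
    obtain ⟨n, hn⟩ := IsPGroup.iff_card.mp hUp
    rw [hn]
    exact Nat.Coprime.pow_left n (Nat.coprime_two_left.mpr hodd)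
  obtain ⟨X, hX⟩ := Subgroup.exists_left_complement'_of_coprime hcop
  have hcard : Nat.card X = (U.subgroupOf N).index := hX.index_eq_card.symm
  have hXodd : Odd (Nat.card X) := by rw [hcard]; exact hodd
  have hdec : ∀ y : N, ∃ z ∈ U.subgroupOf N, ∃ x ∈ X, y = z * x := by
    intro y
    obtain ⟨⟨x, z⟩, hxz⟩ := hX.2 y
    refine ⟨z, z.2, x, x.2, ?_⟩
    rw [← hxz]
    apply Subtype.ext
    exact (hU z z.2 x).symm
  -- the elements of odd order are those of `X`
  have hmem : ∀ y : N, Odd (orderOf y) → y ∈ X := by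
    intro y hy
    obtain ⟨z, hz, x, hx, rfl⟩ := hdec y
    have hzx : Commute z x := by
      apply Subtype.ext
      exact hU z hz x
    have hx1 : x ^ Nat.card X = 1 := by
      have := pow_card_eq_one' (x := (⟨x, hx⟩ : X))
      exact congrArg Subtype.val this
    have h3 : (z * x) ^ (orderOf (z * x) * Nat.card X) = 1 := by
      rw [pow_mul, pow_orderOf_eq_one, one_pow]
    rw [hzx.mul_pow, mul_comm (orderOf (z * x)), pow_mul x, hx1, one_pow, mul_one] at h3
    have h4 : Odd (Nat.card X * orderOf (z * x)) := hXodd.mul hy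
    have h5 : orderOf z ∣ Nat.card X * orderOf (z * x) := orderOf_dvd_of_pow_eq_one h3
    obtain ⟨k, hk⟩ := hUp ⟨z, hz⟩
    have h6 : z ^ 2 ^ k = 1 := congrArg Subtype.val hk
    have h7 : orderOf z ∣ 2 ^ k := orderOf_dvd_of_pow_eq_one h6
    have h8 : orderOf z = 1 := by
      have : Nat.Coprime (2 ^ k) (Nat.card X * orderOf (z * x)) :=
        Nat.Coprime.pow_left k (Nat.coprime_two_left.mpr h4)
      exact Nat.eq_one_of_dvd_coprimes this h7 h5
    rw [orderOf_eq_one_iff] at h8
    rw [h8, one_mul]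
    exact hx
  have hXn : (X.map N.subtype).Normal := by
    constructor
    rintro _ ⟨y, hy, rfl⟩ g
    have h3 : g * (y : G) * g⁻¹ ∈ N := hN.conj_mem _ y.2 g
    refine ⟨⟨g * (y : G) * g⁻¹, h3⟩, hmem _ ?_, rfl⟩
    have h4 : orderOf (⟨g * (y : G) * g⁻¹, h3⟩ : N) = orderOf y := by
      rw [Subgroup.orderOf_mk, ← Subgroup.orderOf_coe y]
      have h := orderOf_injective (MulAut.conj g).toMonoidHom (MulAut.conj g).injective (y : G)
      simpa using h
    rw [h4]
    have h5 : orderOf y ∣ Nat.card X := by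
      have := orderOf_dvd_natCard (⟨y, hy⟩ : X)
      rwa [← orderOf_coe] at this
    exact Odd.of_dvd_nat hXodd h5
  have hXbot : X.map N.subtype = ⊥ := by
    apply hO _ hXn
    rw [Nat.card_congr (X.equivMapOfInjective N.subtype N.subtype_injective).symm.toEquiv]
    exact hXodd
  have hXbot' : X = ⊥ := by
    rwa [Subgroup.map_eq_bot_iff_of_injective _ N.subtype_injective] at hXbot
  intro y hy
  obtain ⟨z, hz, x, hx, h9⟩ := hdec ⟨y, hy⟩
  rw [hXbot', mem_bot] at hx
  rw [hx, mul_one] at h9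
  have : y = (z : G) := congrArg Subtype.val h9
  rw [this]; exact hz

/-- The Z*-theorem for 2-elements of any order, in groups without nontrivial normal subgroups of odd order. -/
theorem central_of_pow (k : ℕ) : ∀ {G : Type u} [Group G] [Finite G]
    (_ : ∀ N : Subgroup G, N.Normal → Odd (Nat.card N) → N = ⊥) (P : Sylow 2 G) {t : G} (_ : t ∈ P)
    (_ : ∀ g : G, g * t * g⁻¹ ∈ P → g * t * g⁻¹ = t) (_ : t ^ 2 ^ k = 1) (g : G), g * t * g⁻¹ = t := by
  have h2 : Fact (Nat.Prime 2) := ⟨Nat.prime_two⟩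
  induction k with
  | zero =>
    intro G _ _ _ P t _ _ h g
    have : t = 1 := by simpa using h
    simp [this]
  | succ k ih =>
    intro G _ _ hO P t ht hiso htk g
    by_cases htk' : t ^ 2 ^ k = 1
    · exact ih hO P ht hiso htk' g
    set u := t ^ 2 ^ k with hu
    have huP : u ∈ P := P.pow_mem ht _
    have hu2 : orderOf u = 2 := by
      apply orderOf_eq_prime _ htk'
      rw [hu, ← pow_mul, ← pow_succ]
      exact htk
    obtain ⟨N, hN, hNodd, hNu⟩ := Cfsg.Agent.S0215.result P u hu2 huP (fun g hg => pow_iso P ht hiso _ g hg)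
    have hN1 := hO N hN hNodd
    have hucen : ∀ g : G, u * g = g * u := by
      intro g
      have h1 := hNu g
      rw [hN1, mem_bot] at h1
      calc u * g = (u * g * u⁻¹ * g⁻¹) * g * u := by group
        _ = g * u := by rw [h1, one_mul]
    set U : Subgroup G := zpowers u with hU
    have hUcen : ∀ v ∈ U, ∀ g : G, v * g = g * v := by
      intro v hv g
      obtain ⟨n, rfl⟩ := mem_zpowers_iff.1 hv
      exact (Commute.zpow_left (hucen g) n)
    have hUn : U.Normal := ⟨fun v hv g => by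
      rw [← hUcen v hv g, mul_assoc, mul_inv_cancel, mul_one]; exact hv⟩
    have hUP : U ≤ P := zpowers_le.2 huP
    have hUp : IsPGroup 2 U := P.isPGroup'.to_le hUP
    -- the quotient
    have hsurj : Function.Surjective (QuotientGroup.mk' U) := QuotientGroup.mk'_surjective U
    let Pb : Sylow 2 (G ⧸ U) := P.mapSurjective hsurj
    have hPb : ∀ x : G, (QuotientGroup.mk' U x) ∈ Pb ↔ x ∈ P := by
      intro x
      constructor
      · rintro ⟨y, hy, hxy⟩
        have h3 : y⁻¹ * x ∈ U := QuotientGroup.eq.1 hxy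
        have : x = y * (y⁻¹ * x) := by group
        rw [this]
        exact P.mul_mem hy (hUP h3)
      · intro hx
        exact ⟨x, hx, rfl⟩
    have hOb : ∀ N : Subgroup (G ⧸ U), N.Normal → Odd (Nat.card N) → N = ⊥ := by
      intro N hN hodd
      have hNc : (N.comap (QuotientGroup.mk' U)).Normal := hN.comap _
      have hUN : U ≤ N.comap (QuotientGroup.mk' U) := by
        intro v hv
        rw [mem_comap, QuotientGroup.mk'_apply, (QuotientGroup.eq_one_iff v).2 hv]
        exact N.one_mem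
      have hrel : U.relIndex (N.comap (QuotientGroup.mk' U)) = Nat.card N := by
        have h3 : (QuotientGroup.mk' U).ker = U := QuotientGroup.ker_mk' U
        have h4 := Subgroup.relIndex_comap (⊥ : Subgroup (G ⧸ U)) (QuotientGroup.mk' U)
          (N.comap (QuotientGroup.mk' U))
        rw [Subgroup.map_comap_eq_self_of_surjective hsurj, MonoidHom.comap_bot, h3] at h4
        rw [h4, Subgroup.relIndex_bot_left]
      have h5 := le_of_central hO U hUcen hUp _ hNc hUN (by rw [hrel]; exact hodd)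
      rw [eq_bot_iff]
      intro x hx
      obtain ⟨y, rfl⟩ := hsurj x
      have h6 : y ∈ U := h5 hx
      rw [mem_bot]
      exact (QuotientGroup.eq_one_iff y).2 h6
    have htb : QuotientGroup.mk' U t ∈ Pb := (hPb t).2 ht
    have hisob : ∀ g : G ⧸ U, g * QuotientGroup.mk' U t * g⁻¹ ∈ Pb →
        g * QuotientGroup.mk' U t * g⁻¹ = QuotientGroup.mk' U t := by
      intro x hx
      obtain ⟨y, rfl⟩ := hsurj x
      rw [← map_inv, ← map_mul, ← map_mul] at hx ⊢
      rw [hiso y ((hPb _).1 hx)]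
    have htkb : (QuotientGroup.mk' U t) ^ 2 ^ k = 1 := by
      rw [← map_pow]
      exact (QuotientGroup.eq_one_iff _).2 (mem_zpowers u)
    have h7 := ih hOb Pb htb hisob htkb (QuotientGroup.mk' U g)
    rw [← map_inv, ← map_mul, ← map_mul] at h7
    apply hiso
    rw [← hPb, h7]
    exact htb

/-- Weak closure passes to quotients by normal subgroups of order prime to `p`. -/
theorem iso_quotient {G : Type*} [Group G] [Finite G] {p : ℕ} [Fact p.Prime] (P : Sylow p G) {t : G} (ht : t ∈ P)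
    (hiso : ∀ g : G, g * t * g⁻¹ ∈ P → g * t * g⁻¹ = t) (N : Subgroup G) [N.Normal]
    (g : G) (hg : ∃ x ∈ P, x⁻¹ * (g * t * g⁻¹) ∈ N) : ∃ n ∈ N, g * t * g⁻¹ = n⁻¹ * t * n := by
  set y := g * t * g⁻¹ with hy
  set C : Subgroup G := (P : Subgroup G) ⊔ N with hC
  have hyC : y ∈ C := by
    obtain ⟨x, hx, hxy⟩ := hg
    have : y = x * (x⁻¹ * y) := by group
    rw [this]
    exact C.mul_mem (le_sup_left (a := (P : Subgroup G)) hx) (le_sup_right (a := (P : Subgroup G)) hxy)
  have hyp : IsPGroup p (zpowers y) := by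
    have h1 : IsPGroup p (zpowers t) := P.isPGroup'.to_le (zpowers_le.2 ht)
    have h2 : (zpowers t).map (MulAut.conj g).toMonoidHom = zpowers y := by
      rw [MonoidHom.map_zpowers]; rfl
    rw [← h2]
    exact h1.map _
  obtain ⟨c, hc, hcy⟩ := exists_conj_mem P C le_sup_left hyC hyp
  have h3 : c * y * c⁻¹ = t := by
    have e : c * y * c⁻¹ = (c * g) * t * (c * g)⁻¹ := by rw [hy]; group
    rw [e]; apply hiso; rw [← e]; exact hcy
  -- write `c = s n` with `s ∈ P`, `n ∈ N`
  have hc' : c ∈ (((P : Subgroup G) : Set G) * (N : Set G)) := by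
    rw [← Subgroup.mul_normal]; exact hc
  obtain ⟨s, hs, n, hn, hsn'⟩ := Set.mem_mul.1 hc'
  have hsn : s * n = c := hsn'
  refine ⟨n, hn, ?_⟩
  have h4 : s * t = t * s := comm_of_iso (P := (P : Subgroup G)) ht hiso hs
  calc y = c⁻¹ * (c * y * c⁻¹) * c := by group
    _ = (s * n)⁻¹ * t * (s * n) := by rw [h3, hsn]
    _ = n⁻¹ * (s⁻¹ * (t * s)) * n := by group
    _ = n⁻¹ * (s⁻¹ * (s * t)) * n := by rw [h4]
    _ = n⁻¹ * t * n := by group

/-- **The Z*-theorem for 2-elements of arbitrary order.** -/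
theorem zstar {G : Type u} [Group G] [Finite G] (P : Sylow 2 G) {t : G} (ht : t ∈ P)
    (hiso : ∀ g : G, g * t * g⁻¹ ∈ P → g * t * g⁻¹ = t) (g : G) :
    g * t * g⁻¹ * t⁻¹ ∈ pPrimeCore 2 G := by
  have h2 : Fact (Nat.Prime 2) := ⟨Nat.prime_two⟩
  have hN : (pPrimeCore 2 G).Normal := Lib.Cores.pPrimeCore_normal 2
  set N := pPrimeCore 2 G with hNdef
  have hsurj : Function.Surjective (QuotientGroup.mk' N) := QuotientGroup.mk'_surjective N
  let Pb : Sylow 2 (G ⧸ N) := P.mapSurjective hsurj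
  have hO : ∀ M : Subgroup (G ⧸ N), M.Normal → Odd (Nat.card M) → M = ⊥ := by
    intro M hM hodd
    rw [eq_bot_iff, ← Lib.Cores.pPrimeCore_quotient_pPrimeCore (G := G) 2]
    exact Lib.Cores.le_pPrimeCore hM (Nat.coprime_two_right.2 hodd)
  have htb : QuotientGroup.mk' N t ∈ Pb := ⟨t, ht, rfl⟩
  have hisob : ∀ g : G ⧸ N, g * QuotientGroup.mk' N t * g⁻¹ ∈ Pb →
      g * QuotientGroup.mk' N t * g⁻¹ = QuotientGroup.mk' N t := by
    intro x hx
    obtain ⟨y, rfl⟩ := hsurj x
    obtain ⟨z, hz, hzy⟩ := hx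
    rw [← map_inv, ← map_mul, ← map_mul] at hzy ⊢
    have h3 : z⁻¹ * (y * t * y⁻¹) ∈ N := QuotientGroup.eq.1 hzy
    obtain ⟨n, hn, h4⟩ := iso_quotient P ht hiso N y ⟨z, hz, h3⟩
    rw [h4, map_mul, map_mul]
    have h5 : QuotientGroup.mk' N n = 1 := (QuotientGroup.eq_one_iff n).2 hn
    rw [map_inv, h5]; simp
  obtain ⟨k, hk⟩ := P.isPGroup' ⟨t, ht⟩
  have hk' : t ^ 2 ^ k = 1 := congrArg Subtype.val hk
  have h6 := central_of_pow k hO Pb htb hisob (by rw [← map_pow, hk', map_one]) (QuotientGroup.mk' N g)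
  rw [← map_inv, ← map_mul, ← map_mul] at h6
  rw [← QuotientGroup.eq_one_iff (N := N)]
  have h7 : QuotientGroup.mk' N (g * t * g⁻¹ * t⁻¹) = 1 := by
    rw [map_mul, h6, map_inv, mul_inv_cancel]
  exact h7

/-- The Z*-theorem for 2-elements commuting with no other conjugate. -/
theorem zstar_of_isolated {G : Type u} [Group G] [Finite G] {t : G} (ht : IsPGroup 2 (zpowers t))
    (hiso : ∀ g : G, Commute (g * t * g⁻¹) t → g * t * g⁻¹ = t) (g : G) :
    g * t * g⁻¹ * t⁻¹ ∈ pPrimeCore 2 G := by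
  have h2 : Fact (Nat.Prime 2) := ⟨Nat.prime_two⟩
  obtain ⟨P, hP⟩ := ht.exists_le_sylow
  have htP : t ∈ P := hP (mem_zpowers t)
  apply zstar P htP
  intro x hx
  apply hiso
  have h3 := central_of_isolated P.isPGroup' (t := (⟨t, htP⟩ : P)) (fun g hg => by
    apply Subtype.ext
    exact hiso g (congrArg Subtype.val hg)) ⟨x * t * x⁻¹, hx⟩
  have h4 : (x * t * x⁻¹) * t * (x * t * x⁻¹)⁻¹ = t := congrArg Subtype.val h3
  exact mul_inv_eq_iff_eq_mul.1 h4

end Cfsg.Agent.H254.ZStarElt
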